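import Mathlib
import Cfsg.Prelude.Def_Classification2
import Cfsg.Prelude.Def_LieTypeChar
import Cfsg.Prelude.Def_CaseTheorems
import Cfsg.Prelude.Def_Spor_Mathieu
import Cfsg.Prelude.Def_Spor_J1
import Cfsg.Prelude.Def_Spor_J2
import Cfsg.Prelude.Def_Spor_Conway
import Cfsg.Prelude.Def_Spor_Ly
import Cfsg.Prelude.Def_Spor_He
import Cfsg.Prelude.Def_Spor_ON
import Cfsg.Prelude.Def_Spor_Suz
import Cfsg.Prelude.Def_Spor_Ru
import Cfsg.Prelude.Def_Spor_Fi22
import Cfsg.Prelude.Def_Spor_Fi23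
import Cfsg.Prelude.Def_Spor_Fi24
import Cfsg.Prelude.Def_Spor_HN
import Cfsg.Prelude.Def_Spor_B
import Cfsg.Prelude.Def_Spor_M
import Cfsg.Agent.AschComp.Base
import Cfsg.Agent.OddHalf.LieOddFam
import Cfsg.Agent.OddTab.Base
import Cfsg.Agent.BabyComp.Sec

-- merged: Cfsg.Agent.AschComp.Rows
section

/-!
# S1308: the rows (helper61)

`Rows`: for every group `X` of the list of S1765 with a component in an involution centralizer, either `RankOne X`
(some involution `z` and component `K` of `C(z)` with `m₂(K) ≤ 1` or `m₂(C(z) ∩ C(K)) ≤ 1`) or `GoodRow X`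
(`GoodCent (C(z) ∩ C(K))` for all involutions `z` and all components `K` of `C(z)` of 2-rank at least 2), or
`NoComp X` (no component at all).
-/

set_option autoImplicit false

namespace Cfsg.Agent.AschComp

open Subgroup Cfsg Cfsg.Agent.OddHalf.LieOddFam
open Cfsg.Agent.CTwoTab (subMap isComponentOf_map map_centralizer_singleton)

universe u v

/-- `C(z) ∩ C(K)` is good for all involutions `z` and all components `K` of `C(z)` of 2-rank at least 2. -/
def GoodRow (X : Type*) [Group X] : Prop :=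
  ∀ (z : X) (K : Subgroup X), orderOf z = 2 → IsComponentOf K (centralizer ({z} : Set X)) → ¬ PRankLE 2 1 ↥K →
    GoodCent ↥(centralizer ({z} : Set X) ⊓ centralizer (K : Set X))

/-- No component in the centralizers of involutions. -/
def NoComp (X : Type*) [Group X] : Prop :=
  ∀ (z : X) (K : Subgroup X), orderOf z = 2 → ¬ IsComponentOf K (centralizer ({z} : Set X))

/-- Some component of an involution centralizer is standard or has 2-rank at most 1. -/
def StdEx (X : Type*) [Group X] : Prop :=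
  ∃ (z : X) (K : Subgroup X), orderOf z = 2 ∧ IsComponentOf K (centralizer ({z} : Set X)) ∧
    (PRankLE 2 1 ↥K ∨ IsStandardSubgroup K)

theorem concl_of_goodRow {X : Type*} [Group X] [Finite X] (h : GoodRow X) (hs : StdEx X) : Concl X := by
  obtain ⟨z, K, hz, hK, h1⟩ := hs
  by_cases hr : PRankLE 2 1 ↥K
  · exact Or.inl ⟨z, hz, K, hK.1, hK.2, hr⟩
  · refine concl_of_std hz ?_ (h1.resolve_left hr) (h z K hz hK hr)
    rw [mem_centralizer_iff]
    intro k hk
    exact mem_centralizer_singleton_iff.1 (hK.1 hk)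

/-- **The rows.** -/
structure Rows : Prop where
  /-- alternating groups -/
  alt : ∀ n : ℕ, 9 ≤ n → Concl ↥(alternatingGroup (Fin n))
  alt7 : NoComp ↥(alternatingGroup (Fin 7))
  /-- Lie type in odd characteristic -/
  psl2 : ∀ (F : Type) [Field F] [Fintype F], Odd (Fintype.card F) → NoComp (Matrix.ProjectiveSpecialLinearGroup (Fin 2) F)
  big : ∀ (X : Type) [Group X] (q : ℕ), OddPow q → q ≠ 3 → Rk X q → RankOne X
  ree : ∀ (X : Type) [Group X], Lie.IsoRee X → RankOne X
  psl3 : ∀ (F : Type) [Field F] [Fintype F] (n : ℕ), Fintype.card F = 3 → 4 ≤ n →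
    RankOne (Matrix.ProjectiveSpecialLinearGroup (Fin n) F)
  psu3 : ∀ (F : Type) [Field F] [Fintype F] (n : ℕ), Fintype.card F = 9 → 5 ≤ n → RankOne (PSU n F 3)
  psp3 : ∀ (F : Type) [Field F] [Fintype F] (m : ℕ), Fintype.card F = 3 → 3 ≤ m → RankOne (PSp m F)
  odd3 : ∀ (F : Type) [Field F] [Fintype F] (m : ℕ), Fintype.card F = 3 → 3 ≤ m →
    RankOne (POmega F (quadFormOdd m F))
  plus3 : ∀ (F : Type) [Field F] [Fintype F] (m : ℕ), Fintype.card F = 3 → 4 ≤ m →
    RankOne (POmega F (quadFormPlus m F))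
  minus3 : ∀ (F : Type) [Field F] [Fintype F] (m : ℕ) (b c : F), Fintype.card F = 3 → 4 ≤ m →
    (∀ z₁ z₂ : F, z₁ ^ 2 + b * z₁ * z₂ + c * z₂ ^ 2 = 0 → z₁ = 0 ∧ z₂ = 0) →
    RankOne (POmega F (quadFormMinus (m - 1) F b c))
  f4 : ∀ (F : Type) [Field F] [Fintype F], Fintype.card F = 3 → RankOne ↥(Lie.chevF4.group F)
  e6 : ∀ (F : Type) [Field F] [Fintype F], Fintype.card F = 3 → RankOne ↥(Lie.chevE6.group F)
  e7 : ∀ (F : Type) [Field F] [Fintype F], Fintype.card F = 3 → RankOne ↥(Lie.chevE7.group F)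
  e8 : ∀ (F : Type) [Field F] [Fintype F], Fintype.card F = 3 → RankOne ↥(Lie.chevE8.group F)
  e6t : ∀ (F : Type) [Field F] [Fintype F], Fintype.card F = 3 ^ 2 → RankOne ↥(Lie.twistedE6 F 3)
  d4t : ∀ (F : Type) [Field F] [Fintype F], Fintype.card F = 3 ^ 3 → RankOne ↥(Lie.twistedD4 F 3)
  /-- sporadic groups -/
  m12 : RankOne ↥Spor.M12
  j1 : RankOne ↥Spor.J1
  j2 : GoodRow Spor.J2
  mcl : RankOne ↥Spor.McL
  ly : RankOne Spor.Ly
  hs : RankOne ↥Spor.HS
  he : GoodRow Spor.He
  on : RankOne Spor.ON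
  suz : GoodRow Spor.Suz
  ru : GoodRow Spor.Ru
  co3 : RankOne ↥Spor.Co3
  co1 : GoodRow Spor.Co1
  fi22 : RankOne Spor.Fi22
  fi23 : RankOne Spor.Fi23
  fi24 : RankOne Spor.Fi24'
  hn : RankOne Spor.HN
  b : RankOne Spor.BabyMonster
  m : RankOne Spor.Monster

end Cfsg.Agent.AschComp

end

-- merged: Cfsg.Agent.AschComp.SpTool
section

/-!
# Tools for the sporadic rows `RankOne` of S1308 (helper32)
-/

set_option autoImplicit false

namespace Cfsg.Agent.AschComp.SpTool

open Subgroup Cfsg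

universe u

/-- a group all of whose elements are `1` or `t` has 2-rank at most 1 -/
theorem prankLE_of_two {X : Type*} [Group X] {H : Subgroup X} {t : X} (h : ∀ u ∈ H, u = 1 ∨ u = t) : PRankLE 2 1 ↥H := by
  intro A _ _
  classical
  have h1 : Nat.card ↥A ≤ Nat.card (Fin 2) := by
    refine Nat.card_le_card_of_injective (fun x : ↥A => if x = 1 then (0 : Fin 2) else 1) ?_
    intro x y hxy
    by_cases hx : x = 1 <;> by_cases hy : y = 1
    · rw [hx, hy]
    · simp [hx, hy] at hxy
    · simp [hx, hy] at hxy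
    · have hx' : ((x : ↥H) : X) = t := by
        rcases h _ (x : ↥H).2 with h1 | h1
        · exact absurd (Subtype.ext (Subtype.ext h1)) hx
        · exact h1
      have hy' : ((y : ↥H) : X) = t := by
        rcases h _ (y : ↥H).2 with h1 | h1
        · exact absurd (Subtype.ext (Subtype.ext h1)) hy
        · exact h1
      exact Subtype.ext (Subtype.ext (hx'.trans hy'.symm))
  rw [Nat.card_fin] at h1
  rw [pow_one]
  exact h1

/-- a component `K` of `C(t)` with `C(t) ∩ C(K) = ⟨t⟩` -/
theorem rankOne_of {X : Type*} [Group X] {t : X} {K : Subgroup X} (ht : orderOf t = 2)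
    (hle : K ≤ centralizer ({t} : Set X)) (hq : IsQuasisimple ↥K)
    (hn : ∀ g ∈ centralizer ({t} : Set X), ∀ x ∈ K, g * x * g⁻¹ ∈ K)
    (h : ∀ u ∈ centralizer ({t} : Set X), (∀ x ∈ K, x * u = u * x) → u = 1 ∨ u = t) : RankOne X := by
  refine ⟨t, K, ht, Cfsg.Agent.OddTab.isComponentOf_of_normalized hle hq hn, Or.inr (prankLE_of_two (t := t) ?_)⟩
  rintro u ⟨hu1, hu2⟩
  exact h u hu1 fun x hx => mem_centralizer_iff.1 hu2 x hx

/-- an involution `t` with a quasisimple centralizer with centre of order 2 -/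
theorem rankOne_of_quasi {X : Type*} [Group X] {t : X} (ht : orderOf t = 2)
    (hq : IsQuasisimple ↥(centralizer ({t} : Set X))) (hc : Nat.card ↥(center ↥(centralizer ({t} : Set X))) = 2) :
    RankOne X := by
  refine rankOne_of (K := centralizer ({t} : Set X)) ht le_rfl hq
    (fun g hg x hx => mul_mem (mul_mem hg hx) (inv_mem hg)) ?_
  intro u hu h
  have htc : (⟨t, mem_centralizer_singleton_iff.2 rfl⟩ : ↥(centralizer ({t} : Set X))) ∈ center ↥(centralizer ({t} : Set X)) := by
    rw [mem_center_iff]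
    intro g
    exact Subtype.ext (mem_centralizer_singleton_iff.1 g.2)
  have huc : (⟨u, hu⟩ : ↥(centralizer ({t} : Set X))) ∈ center ↥(centralizer ({t} : Set X)) := by
    rw [mem_center_iff]
    intro g
    exact Subtype.ext (h g g.2)
  by_contra hcon
  push Not at hcon
  have ht1 : t ≠ 1 := by
    intro h1
    rw [h1, orderOf_one] at ht
    omega
  obtain ⟨w, -, hw⟩ := (Nat.card_eq_two_iff' (1 : ↥(center ↥(centralizer ({t} : Set X))))).1 hc
  have h1 := hw ⟨_, htc⟩ fun h1 => ht1 (congrArg (fun x : ↥(center ↥(centralizer ({t} : Set X))) => ((x : ↥(centralizer ({t} : Set X))) : X)) h1)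
  have h2 := hw ⟨_, huc⟩ fun h1 => hcon.1 (congrArg (fun x : ↥(center ↥(centralizer ({t} : Set X))) => ((x : ↥(centralizer ({t} : Set X))) : X)) h1)
  exact hcon.2 (congrArg (fun x : ↥(center ↥(centralizer ({t} : Set X))) => ((x : ↥(centralizer ({t} : Set X))) : X)) (h2.trans h1.symm))

end Cfsg.Agent.AschComp.SpTool

end

-- merged: Cfsg.Agent.AschComp.SpSec
section

/-!
# S1308: `RankOne` from a section of the centralizer of an involution (helper32)

`rankOne_of_data` : `X₀ ⊴ C(t)` contains every perfect subgroup of `C(t)`, `σ : X₀ → E` is onto with kernel `⟨t⟩`, `E` is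
simple, and an element of `C(t)` acting trivially on `X₀ / ⟨t⟩` lies in `⟨t⟩`; then `K = [X₀, X₀]` is a component of
`C(t)` with `C(t) ∩ C(K) = ⟨t⟩`. Used for the Baby Monster (`E = ²E₆(2)`).
-/

set_option autoImplicit false

namespace Cfsg.Agent.AschComp.SpSec

open Subgroup Cfsg Cfsg.Agent.BabyComp
open scoped commutatorElement

variable {X E : Type*} [Group X] [Group E] [IsSimpleGroup E] {t : X} {X₀ : Subgroup X} {σ : ↥X₀ →* E}

/-- every element of `X₀` is in `[X₀, X₀] ⟨t⟩` -/
theorem mem_or (H : Sec.Data t σ) (hna : ∃ a b : E, a * b ≠ b * a) (m : X) (hm : m ∈ X₀) :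
    m ∈ ⁅X₀, X₀⁆ ∨ m * t ∈ ⁅X₀, X₀⁆ := by
  have hn : ((_root_.commutator ↥X₀).map σ).Normal := Subgroup.Normal.map inferInstance σ H.surj
  have htop : (_root_.commutator ↥X₀).map σ = ⊤ := by
    rcases hn.eq_bot_or_eq_top with h | h
    · exfalso
      obtain ⟨a, b, hab⟩ := hna
      obtain ⟨a, rfl⟩ := H.surj a
      obtain ⟨b, rfl⟩ := H.surj b
      apply hab
      have h1 : σ ⁅a, b⁆ ∈ (_root_.commutator ↥X₀).map σ :=
        ⟨_, Subgroup.commutator_mem_commutator (mem_top a) (mem_top b), rfl⟩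
      rw [h, mem_bot, map_commutatorElement, commutatorElement_eq_one_iff_mul_comm] at h1
      exact h1
    · exact h
  have h1 : σ ⟨m, hm⟩ ∈ (_root_.commutator ↥X₀).map σ := by rw [htop]; trivial
  obtain ⟨c, hc, hcm⟩ := h1
  have hc' : (c : X) ∈ ⁅X₀, X₀⁆ := by
    have h2 : (_root_.commutator ↥X₀).map X₀.subtype = ⁅X₀, X₀⁆ := by
      rw [_root_.commutator_def, Subgroup.map_commutator, ← MonoidHom.range_eq_map, Subgroup.range_subtype]
    rw [← h2]
    exact ⟨c, hc, rfl⟩
  rcases H.map_eq.1 hcm with h3 | h3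
  · left
    rw [show m = (c : X) from h3.symm]
    exact hc'
  · right
    rw [show m * t = (c : X) from h3.symm]
    exact hc'

theorem comm_eq (H : Sec.Data t σ) (hna : ∃ a b : E, a * b ≠ b * a) : ⁅⁅X₀, X₀⁆, ⁅X₀, X₀⁆⁆ = ⁅X₀, X₀⁆ := by
  apply le_antisymm
  · exact commutator_mono (commutator_le_self X₀) (commutator_le_self X₀)
  · rw [commutator_le]
    intro a ha b hb
    have hta : ∀ x ∈ X₀, x * t = t * x := H.comm
    have htt : t⁻¹ = t := inv_eq_of_mul_eq_one_left H.t_sq
    have key : ∀ a b : X, a * t = t * a → b * t = t * b → ⁅a * t, b⁆ = ⁅a, b⁆ ∧ ⁅a, b * t⁆ = ⁅a, b⁆ := by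
      intro a b ha hb
      have hb' : b⁻¹ * t = t * b⁻¹ := by
        rw [inv_mul_eq_iff_eq_mul, ← mul_assoc, hb, mul_inv_cancel_right]
      have ha' : a⁻¹ * t = t * a⁻¹ := by
        rw [inv_mul_eq_iff_eq_mul, ← mul_assoc, ha, mul_inv_cancel_right]
      constructor
      · rw [commutatorElement_def, commutatorElement_def, mul_inv_rev, htt]
        calc a * t * b * (t * a⁻¹) * b⁻¹ = a * (t * b) * (t * a⁻¹) * b⁻¹ := by group
          _ = a * b * (t * t) * a⁻¹ * b⁻¹ := by rw [← hb]; group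
          _ = _ := by rw [H.t_sq, mul_one]
      · rw [commutatorElement_def, commutatorElement_def, mul_inv_rev, htt]
        calc a * (b * t) * a⁻¹ * (t * b⁻¹) = a * b * (t * a⁻¹) * (t * b⁻¹) := by group
          _ = a * b * a⁻¹ * (t * t) * b⁻¹ := by rw [← ha']; group
          _ = _ := by rw [H.t_sq, mul_one]
    rcases mem_or H hna a ha with h1 | h1 <;> rcases mem_or H hna b hb with h2 | h2
    · exact commutator_mem_commutator h1 h2
    · have h3 := commutator_mem_commutator h1 h2
      rwa [(key a b (H.comm a ha) (H.comm b hb)).2] at h3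
    · have h3 := commutator_mem_commutator h1 h2
      rwa [(key a b (H.comm a ha) (H.comm b hb)).1] at h3
    · have h3 := commutator_mem_commutator h1 h2
      have hbt : b * t * t = t * (b * t) := by rw [← mul_assoc, ← H.comm b hb]
      rw [(key a (b * t) (H.comm a ha) hbt).1, (key a b (H.comm a ha) (H.comm b hb)).2] at h3
      exact h3

/-- **`RankOne` from the section.** -/
theorem rankOne_of_data (H : Sec.Data t σ) (hna : ∃ a b : E, a * b ≠ b * a) : RankOne X := by
  have ht2 : orderOf t = 2 := orderOf_eq_prime (by rw [pow_two, H.t_sq]) H.t_ne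
  have hle : ⁅X₀, X₀⁆ ≤ X₀ := commutator_le_self X₀
  -- the restriction of `σ`
  let f : ↥(⁅X₀, X₀⁆ : Subgroup X) →* E := σ.comp (Subgroup.inclusion hle)
  have hf : Function.Surjective f := by
    intro e
    obtain ⟨m, rfl⟩ := H.surj e
    rcases mem_or H hna m m.2 with h1 | h1
    · exact ⟨⟨m, h1⟩, rfl⟩
    · refine ⟨⟨m * t, h1⟩, ?_⟩
      change σ ⟨m * t, _⟩ = σ m
      rw [H.map_eq]
      exact Or.inr rfl
  have hk : f.ker ≤ center ↥(⁅X₀, X₀⁆ : Subgroup X) := by
    intro x hx
    have h1 : σ ⟨x, hle x.2⟩ = 1 := hx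
    rw [H.ker] at h1
    rw [mem_center_iff]
    intro g
    apply Subtype.ext
    change (g : X) * x = x * g
    rcases h1 with h1 | h1
    · rw [show (x : X) = 1 from h1, mul_one, one_mul]
    · rw [show (x : X) = t from h1]
      exact H.comm g (hle g.2)
  have hcen : center E = ⊥ := by
    rcases (inferInstance : (center E).Normal).eq_bot_or_eq_top with h | h
    · exact h
    · exfalso
      obtain ⟨a, b, hab⟩ := hna
      have h1 : b ∈ center E := by rw [h]; trivial
      exact hab (mem_center_iff.1 h1 a)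
  have hker : f.ker = center ↥(⁅X₀, X₀⁆ : Subgroup X) := by
    apply le_antisymm hk
    intro x hx
    rw [MonoidHom.mem_ker, ← mem_bot, ← hcen, mem_center_iff]
    intro e
    obtain ⟨y, rfl⟩ := hf e
    rw [← map_mul, ← map_mul, mem_center_iff.1 hx y]
  have hq : IsQuasisimple ↥(⁅X₀, X₀⁆ : Subgroup X) := by
    refine ⟨⟨?_⟩, ?_⟩
    · rw [_root_.commutator_def]
      apply Subgroup.map_injective (Subgroup.subtype_injective (⁅X₀, X₀⁆ : Subgroup X))
      rw [Subgroup.map_commutator, ← MonoidHom.range_eq_map, Subgroup.range_subtype]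
      exact comm_eq H hna
    · have e : (↥(⁅X₀, X₀⁆ : Subgroup X) ⧸ center ↥(⁅X₀, X₀⁆ : Subgroup X)) ≃* E :=
        (QuotientGroup.quotientMulEquivOfEq hker.symm).trans (QuotientGroup.quotientKerEquivOfSurjective f hf)
      exact e.isSimpleGroup
  refine SpTool.rankOne_of ht2 ?_ hq ?_ ?_
  · intro x hx
    exact mem_centralizer_singleton_iff.2 (H.comm x (hle hx))
  · intro g hg x hx
    have hg' : ∀ m ∈ X₀, g * m * g⁻¹ ∈ X₀ := H.nrm g (mem_centralizer_singleton_iff.1 hg)
    have h1 : (⁅X₀, X₀⁆ : Subgroup X).map (MulAut.conj g).toMonoidHom ≤ ⁅X₀, X₀⁆ := by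
      rw [Subgroup.map_commutator]
      refine commutator_mono ?_ ?_ <;>
      · rintro _ ⟨m, hm, rfl⟩
        exact hg' m hm
    exact h1 ⟨x, hx, rfl⟩
  · intro u hu h
    refine H.cen u (mem_centralizer_singleton_iff.1 hu) fun m hm => Or.inl ?_
    have hut := mem_centralizer_singleton_iff.1 hu
    rcases mem_or H hna m hm with h1 | h1
    · rw [← h m h1]
      group
    · have h2 := h _ h1
      have h3 : m * u = u * m := by
        have h4 : m * u * t = u * m * t := by
          rw [mul_assoc m u t, hut, ← mul_assoc, h2]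
          group
        exact mul_right_cancel h4
      rw [← h3]
      group

end Cfsg.Agent.AschComp.SpSec

end
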